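import Groth.Agent.Lefpen.H723.P1Flat
import Groth.Agent.Pi1.H396.Core
import Groth.Agent.Pi1.H396.SplitGlue
import Groth.Agent.Pi1A.NormalFF
import Groth.Agent.Ega3B.ProjProper
import Groth.Agent.Sga4h.BidGeoP1
import Groth.Agent.CohqA.ProjDim

/-!
# The projective line over an algebraically closed field is simply connected

`isSplit k Y`: every finite étale cover `Y` of `P^1_k` is a finite disjoint union of copies of `P^1_k`.
-/

set_option autoImplicit false
universe u
open CategoryTheory AlgebraicGeometry Limits TopologicalSpace Opposite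

namespace Groth.Agent.Lefpen.H723.P1Simply

open Groth.Agent.Sga5

variable (k : Type u) [Field k]

instance isIntegral_P1 : IsIntegral (CohB1.ProjSpace 1 k) :=
  inferInstanceAs (IsIntegral (CohB1.ProjSpace 1 k))

theorem genericPoint_eq : genericPoint (CohB1.ProjSpace 1 k) = ProjConn.genPt 1 k :=
  ((genericPoint_specializes (ProjConn.genPt 1 k)).antisymm
    (Groth.Agent.Sga4h.BidGeoP1.genPt_specializes k 1 _)).eq

theorem isNormal : Pi1.IsNormalScheme (CohB1.ProjSpace 1 k) := by
  intro y
  obtain ⟨h1, h2⟩ := P1Flat.stalk_pid k y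
  exact ⟨h1, inferInstance⟩

/-- The generic point as a field-valued point. -/
noncomputable def gen : Spec (CommRingCat.of (FractionRing (MvPolynomial (Fin 1) k))) ⟶ CohB1.ProjSpace 1 k :=
  Spec.map (CommRingCat.ofHom (algebraMap (MvPolynomial (Fin 1) k) (FractionRing (MvPolynomial (Fin 1) k)))) ≫
    ProjSmooth.chart 1 k 0

theorem gen_toSpec : gen k ≫ CohB1.ProjSpace.toSpec 1 k =
    Spec.map (CommRingCat.ofHom (algebraMap k (FractionRing (MvPolynomial (Fin 1) k)))) := by
  rw [gen, Category.assoc, ProjSmooth.chart_toSpec, ← Spec.map_comp, ← CommRingCat.ofHom_comp,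
    IsScalarTower.algebraMap_eq k (MvPolynomial (Fin 1) k) (FractionRing (MvPolynomial (Fin 1) k))]
  rfl

theorem gen_apply (z : Spec (CommRingCat.of (FractionRing (MvPolynomial (Fin 1) k)))) :
    gen k z = genericPoint (CohB1.ProjSpace 1 k) := by
  rw [genericPoint_eq, gen, Scheme.Hom.comp_apply]
  apply Groth.Agent.Sga4h.BidGeoP1.chart_bot
  change Ideal.comap (algebraMap (MvPolynomial (Fin 1) k) (FractionRing (MvPolynomial (Fin 1) k)))
    (PrimeSpectrum.asIdeal z) = ⊥
  rw [(PrimeSpectrum.asIdeal z).eq_bot_of_prime, ← RingHom.ker_eq_comap_bot,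
    RingHom.ker_eq_bot_iff_eq_zero]
  intro x hx
  exact (injective_iff_map_eq_zero _).1 (IsFractionRing.injective (MvPolynomial (Fin 1) k)
    (FractionRing (MvPolynomial (Fin 1) k))) x hx

instance isPreimmersion_gen : IsPreimmersion (gen k) := by
  have h1 : IsPreimmersion (Spec.map (CommRingCat.ofHom (algebraMap (MvPolynomial (Fin 1) k)
      (FractionRing (MvPolynomial (Fin 1) k))))) :=
    IsPreimmersion.of_isLocalization (nonZeroDivisors (MvPolynomial (Fin 1) k))
  rw [gen]
  infer_instance

theorem restrict_gen : (FEt.restrict (gen k)).Full ∧ (FEt.restrict (gen k)).Faithful := by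
  apply Groth.Agent.Pi1A.NormalFF.fullyFaithful_of_normal (isNormal k)
  · intro T
    exact (pullback.fst T.hom (gen k)).isEmbedding.injective
  · exact ⟨(⊥ : PrimeSpectrum (FractionRing (MvPolynomial (Fin 1) k))), gen_apply k _⟩
  · rintro T W - ⟨w, hw⟩
    refine ⟨w, hw, ?_⟩
    rw [← Scheme.Hom.comp_apply, pullback.condition, Scheme.Hom.comp_apply, gen_apply]

variable [IsAlgClosed k]

/-- **The projective line is simply connected.** -/
theorem isSplit (Y : FEt.Cat (CohB1.ProjSpace 1 k)) : Pi1.IsSplit Y := by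
  have h0 := Groth.Agent.Ega3B.ProjProper.isProper_toSpec 1 k
  have h1 := Groth.Agent.Pi1.H396.Core.core (CohB1.ProjSpace 1 k) (CohB1.ProjSpace.toSpec 1 k) 1
    (gen k) (gen_toSpec k) Y
  obtain ⟨hfull, hfaith⟩ := restrict_gen k
  exact Groth.Agent.Pi1.H396.SplitGlue.isSplit_of_restrict (CohB1.ProjSpace.toSpec 1 k) _ hfull hfaith Y h1

end Groth.Agent.Lefpen.H723.P1Simply
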