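import Groth.Prelude.Def_EtBase
import Groth.Prelude.Def_Pi1
import Groth.Agent.S0107

/-!
# Finite locally constant sheaves on simply connected schemes

`exists_global`: if every finite étale cover of `S` is split, every section of a finite locally constant sheaf on `S`
over an étale `S`-scheme is, locally, the restriction of a global section.
-/

set_option autoImplicit false
universe u
open CategoryTheory AlgebraicGeometry Limits TopologicalSpace Opposite

namespace Groth.Agent.Lefpen.H723.SplitSec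

/-- The open subscheme `W` of `V`, as an étale `S`-scheme. -/
noncomputable def res {S : Scheme.{u}} (V : S.Etale) (W : V.left.Opens) : S.Etale :=
  have : Etale V.hom := V.prop
  Scheme.Etale.mk (W.ι ≫ V.hom)

/-- Its inclusion in `V`. -/
noncomputable def resι {S : Scheme.{u}} (V : S.Etale) (W : V.left.Opens) : res V W ⟶ V :=
  MorphismProperty.Over.homMk W.ι rfl trivial

/-- The morphism to the final object. -/
noncomputable def toTop {S : Scheme.{u}} (V : S.Etale) : V ⟶ EtCoh.top S :=
  MorphismProperty.Over.homMk V.hom (Category.comp_id _) trivial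

theorem toTop_left {S : Scheme.{u}} (V : S.Etale) : (toTop V).left = V.hom := rfl

theorem map_naturality {S : Scheme.{u}} {G : EtCoh.Ab S} {U : S.Etale}
    (φ : G.obj ⋙ forget AddCommGrpCat.{u + 1} ≅ yoneda.obj U ⋙ uliftFunctor.{u + 1})
    {V V' : S.Etale} (k : V' ⟶ V) (s : EtCoh.sect G V) :
    (φ.hom.app (op V') (G.obj.map k.op s)).down = k ≫ (φ.hom.app (op V) s).down := by
  have h := ConcreteCategory.congr_hom (φ.hom.naturality k.op) s
  exact congrArg ULift.down h

theorem map_injective {S : Scheme.{u}} {G : EtCoh.Ab S} {U : S.Etale}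
    (φ : G.obj ⋙ forget AddCommGrpCat.{u + 1} ≅ yoneda.obj U ⋙ uliftFunctor.{u + 1})
    {V : S.Etale} {s t : EtCoh.sect G V}
    (h : (φ.hom.app (op V) s).down = (φ.hom.app (op V) t).down) : s = t := by
  have h1 : φ.hom.app (op V) s = φ.hom.app (op V) t := ULift.ext _ _ h
  have h2 := congrArg (φ.inv.app (op V)) h1
  have h3 : ∀ x, φ.inv.app (op V) (φ.hom.app (op V) x) = x := fun x =>
    ConcreteCategory.congr_hom (φ.hom_inv_id_app (op V)) x
  rw [h3, h3] at h2
  exact h2

/-- Sections of a finite locally constant sheaf on a simply connected scheme are locally restrictions of global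
sections. -/
theorem exists_global {S : Scheme.{u}} (hS : ∀ Y : FEt.Cat S, Pi1.IsSplit Y) (G : EtCoh.Ab S)
    (hG : EtCoh.IsFiniteLocallyConstant G) (V : S.Etale) (s : EtCoh.sect G V) (v : V.left) :
    ∃ (V' : S.Etale) (k : V' ⟶ V) (v' : V'.left) (_ : k.left v' = v) (g : EtCoh.sect G (EtCoh.top S))
      (t : V' ⟶ EtCoh.top S), G.obj.map k.op s = G.obj.map t.op g := by
  obtain ⟨U, hU, ⟨φ⟩⟩ := Groth.Agent.S0107.result G hG
  have hUet : Etale U.hom := U.prop
  obtain ⟨ι, _, e, he⟩ := hS (MorphismProperty.Over.mk ⊤ U.hom ⟨hU, hUet⟩)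
  let t : V ⟶ U := (φ.hom.app (op V) s).down
  have hcov : ∃ (i : ι) (y : S), Sigma.ι (fun _ : ι => S) i y = e.hom (t.left v) := by
    obtain ⟨i, y, hy⟩ := (sigmaOpenCover (fun _ : ι => S)).exists_eq (e.hom (t.left v))
    exact ⟨i, y, hy⟩
  obtain ⟨i, y, hy⟩ := hcov
  let σ : S ⟶ U.left := Sigma.ι (fun _ : ι => S) i ≫ e.inv
  have hσ : σ ≫ U.hom = 𝟙 S := by
    have := he i
    rw [Category.assoc]
    exact this
  have hσo : IsOpenImmersion σ := inferInstance
  let σ' : EtCoh.top S ⟶ U := MorphismProperty.Over.homMk σ hσ trivial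
  let g : EtCoh.sect G (EtCoh.top S) := φ.inv.app (op (EtCoh.top S)) (ULift.up σ')
  have hg : (φ.hom.app (op (EtCoh.top S)) g).down = σ' := by
    have h : φ.hom.app (op (EtCoh.top S)) g = ULift.up σ' :=
      ConcreteCategory.congr_hom (φ.inv_hom_id_app (op (EtCoh.top S))) (ULift.up σ' : ULift.{u + 1} _)
    exact congrArg ULift.down h
  have hv : t.left v ∈ σ.opensRange := by
    refine ⟨y, ?_⟩
    have h1 := congrArg (fun f : U.left ⟶ U.left => f (t.left v)) e.hom_inv_id
    exact (congrArg e.inv hy).trans h1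
  let W : V.left.Opens := t.left ⁻¹ᵁ σ.opensRange
  refine ⟨res V W, resι V W, ⟨v, hv⟩, rfl, g, toTop _, ?_⟩
  apply map_injective φ
  rw [map_naturality, map_naturality, hg]
  apply MorphismProperty.Over.Hom.ext
  change W.ι ≫ t.left = (W.ι ≫ V.hom) ≫ σ
  have h1 : Set.range (W.ι ≫ t.left) ⊆ Set.range σ := by
    rintro _ ⟨z, rfl⟩
    exact z.2
  have h2 := IsOpenImmersion.lift_fac σ (W.ι ≫ t.left) h1
  have h3 : t.left ≫ U.hom = V.hom := Over.w t.hom
  have h4 : IsOpenImmersion.lift σ (W.ι ≫ t.left) h1 = W.ι ≫ V.hom := by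
    rw [← Category.comp_id (IsOpenImmersion.lift σ (W.ι ≫ t.left) h1), ← hσ, ← Category.assoc, h2,
      Category.assoc, h3]
  rw [← h4, h2]

end Groth.Agent.Lefpen.H723.SplitSec
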